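import Mathlib
import Cfsg.Agent.H961.CopSmall
import Cfsg.Agent.H961.CopRed
import Cfsg.Agent.H254.CopAlt
import Cfsg.Agent.S0205
import Cfsg.Agent.S0254

/-!
# Coprime elementary abelian groups of automorphisms with solvable fixed points: simple groups (helper961)

`sc_of` : the property `SC r (IsRankOneOverDegreeRField r)` from the rows of the coprime automorphism groups.
-/

set_option autoImplicit false

namespace Cfsg.Agent.H961.CopCore

open Cfsg Cfsg.Agent.H254 Cfsg.Agent.H566 Cfsg.Agent.H961.CompFac Cfsg.Agent.H961.CopRed Cfsg.Agent.H961.CopSmall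

universe u

theorem inv_rank (r : ℕ) : CompFac.Inv.{u} (fun X _ => IsRankOneOverDegreeRField r X) := by
  intro X Y _ _ e h
  rcases h with ⟨F, i1, i2, h1, ⟨f⟩⟩ | ⟨F, i1, i2, h1, ⟨f⟩⟩ | ⟨F, i1, i2, h1, ⟨f⟩⟩ | ⟨F, i1, i2, m, h1, h2, ⟨f⟩⟩
  · exact Or.inl ⟨F, i1, i2, h1, ⟨e.symm.trans f⟩⟩
  · exact Or.inr (Or.inl ⟨F, i1, i2, h1, ⟨e.symm.trans f⟩⟩)
  · exact Or.inr (Or.inr (Or.inl ⟨F, i1, i2, h1, ⟨e.symm.trans f⟩⟩))
  · exact Or.inr (Or.inr (Or.inr ⟨F, i1, i2, m, h1, h2, ⟨e.symm.trans f⟩⟩))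

/-- a K-group which is simple is known -/
theorem known_of_isKGroup {K : Type u} [Group K] [IsSimpleGroup K] (hna : ¬ IsMulCommutative K) (hk : IsKGroup K) :
    IsKnownSimple' K := by
  let e : (⊤ : Subgroup K) ⧸ (⊥ : Subgroup (⊤ : Subgroup K)) ≃* K :=
    QuotientGroup.quotientBot.trans Subgroup.topEquiv
  have h1 : IsSimpleGroup ((⊤ : Subgroup K) ⧸ (⊥ : Subgroup (⊤ : Subgroup K))) := e.isSimpleGroup
  have h2 : ¬ IsMulCommutative ((⊤ : Subgroup K) ⧸ (⊥ : Subgroup (⊤ : Subgroup K))) := by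
    intro hc
    apply hna
    refine ⟨⟨fun a b => e.symm.injective ?_⟩⟩
    rw [map_mul, map_mul]
    exact hc.is_comm.comm _ _
  exact (CpQuot.Congr.isKnown_iff e).mp (hk ⊤ ⊥ h1 h2)

/-- The rows. -/
structure Rows : Prop where
  cyc : ∀ (K : Type u) [Group K] [Finite K] [IsSimpleGroup K], ¬ IsMulCommutative K → IsKnownSimple' K → CopCyc K
  spor : ∀ (K : Type u) [Group K], IsSporadicGroup K → CopTriv K
  tits : ∀ (K : Type u) [Group K], Lie.IsoTits K → CopTriv K

theorem sc_of (R : Rows.{u}) (r : ℕ) [hr : Fact r.Prime] : SC.{u} r (fun X _ => IsRankOneOverDegreeRField r X) := by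
  intro K _ _ _ hna hkg A hA hcop hsol
  have hna' : ¬ IsMulCommutative K := fun h => hna h.is_comm.comm
  have hk := known_of_isKGroup hna' hkg
  have h2 : 2 ∣ Nat.card K := by
    by_contra h
    have hodd : Odd (Nat.card K) := by
      rw [← Nat.not_even_iff_odd, even_iff_two_dvd]
      exact h
    exact hna (IsSimpleGroup.comm_iff_isSolvable.2 (S0205.result hodd))
  have hns : ¬ Group.IsSolvable K := fun h => hna (IsSimpleGroup.comm_iff_isSolvable.2 h)
  -- `A` is not trivial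
  have hAne : A ≠ ⊥ := by
    rintro rfl
    apply hns
    have h1 : Fx (⊥ : Subgroup (MulAut K)) = ⊤ := by
      rw [eq_top_iff]
      intro x _ α hα
      rw [Subgroup.mem_bot.1 hα]; rfl
    rw [h1] at hsol
    exact solv_inj hsol (Subgroup.topEquiv (G := K)).symm.toMonoidHom (Subgroup.topEquiv (G := K)).symm.injective
  have triv : CopTriv K → IsRankOneOverDegreeRField r K := fun h => absurd (h A hcop) hAne
  -- `A` is generated by an element of order `r`
  obtain ⟨α, hα1⟩ := Subgroup.ne_bot_iff_exists_ne_one.1 hAne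
  have hα : (α : MulAut K) ∈ A := α.2
  have hα1' : (α : MulAut K) ≠ 1 := fun h => hα1 (Subtype.ext h)
  have hfin : Finite (MulAut K) := inferInstance
  have hord : orderOf (α : MulAut K) = r := orderOf_eq_prime (hA.2 _ hα) hα1'
  have hcyc := R.cyc K hna' hk A hcop
  have hle : A ≤ Subgroup.zpowers (α : MulAut K) := by
    obtain ⟨g, hg⟩ := hcyc.exists_generator
    have hgr : (g : MulAut K) ^ r = 1 := hA.2 _ g.2
    have hcard : Nat.card A ∣ r := by
      rw [← orderOf_eq_card_of_forall_mem_zpowers hg]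
      exact orderOf_dvd_of_pow_eq_one (Subtype.ext hgr)
    have hz : Subgroup.zpowers (α : MulAut K) ≤ A := by
      rw [Subgroup.zpowers_le]; exact hα
    have h3 : Subgroup.zpowers (α : MulAut K) = A := by
      refine Subgroup.eq_of_le_of_card_ge hz ?_
      rw [Nat.card_zpowers, hord]
      exact Nat.le_of_dvd hr.out.pos hcard
    exact h3.ge
  have hαc : (orderOf (α : MulAut K)).Coprime (Nat.card K) := by
    rw [← Nat.card_zpowers]
    exact Nat.Coprime.coprime_dvd_left (Subgroup.card_dvd_of_le (by rw [Subgroup.zpowers_le]; exact hα)) hcop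
  have hs : Group.IsSolvable ↥(H967.CopSec.Fix (α : MulAut K)) := by
    refine solv_inj hsol (Subgroup.inclusion ?_) (Subgroup.inclusion_injective _)
    intro x hx β hβ
    obtain ⟨k, hk⟩ := hle hβ
    have h1 : (α : MulAut K) ∈ MulAction.stabilizer (MulAut K) x := hx
    have h3 := zpow_mem h1 k
    have h4 : (α : MulAut K) ^ k = β := hk
    rw [h4] at h3
    exact h3
  have lie := fun h => hord ▸ lie_case hna' h2 h (α : MulAut K) hαc hs
  rcases hk with hk | hk | hk | hk | hk | hk | hk | hk | hk | hk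
  · exfalso
    apply hna'
    have h1 : Fact (Nat.card K).Prime := ⟨hk⟩
    have h2 : IsCyclic K := isCyclic_of_prime_card (p := Nat.card K) rfl
    exact IsCyclic.isMulCommutative
  · obtain ⟨n, hn, ⟨e⟩⟩ := hk
    by_cases h6 : n = 6
    · subst h6
      let _ : Fintype (GaloisField 3 2) := Fintype.ofFinite _
      have hF : Fintype.card (GaloisField 3 2) = 9 := by
        rw [Fintype.card_eq_nat_card, GaloisField.card 3 2 (by norm_num)]; norm_num
      obtain ⟨f⟩ := S0254.result hF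
      exact lie (Or.inl ⟨GaloisField 3 2, inferInstance, inferInstance, 2, le_rfl, fun _ => by rw [hF]; norm_num,
        ⟨e.trans f.symm⟩⟩)
    · exact triv ((Alt.copTriv hn h6).of_equiv e.symm)
  · exact lie (Or.inl hk)
  · exact lie (Or.inr (Or.inl hk))
  · exact lie (Or.inr (Or.inr (Or.inl hk)))
  · exact lie (Or.inr (Or.inr (Or.inr (Or.inl hk))))
  · exact lie (Or.inr (Or.inr (Or.inr (Or.inr (Or.inl hk)))))
  · exact lie (Or.inr (Or.inr (Or.inr (Or.inr (Or.inr (Or.inl hk))))))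
  · rcases hk with hk | hk | hk | hk | hk | hk | hk | hk | hk | hk | hk
    · exact lie (Or.inr (Or.inr (Or.inr (Or.inr (Or.inr (Or.inr (Or.inl hk)))))))
    · exact lie (Or.inr (Or.inr (Or.inr (Or.inr (Or.inr (Or.inr (Or.inr (Or.inl hk))))))))
    · exact lie (Or.inr (Or.inr (Or.inr (Or.inr (Or.inr (Or.inr (Or.inr (Or.inr (Or.inl hk)))))))))
    · exact lie (Or.inr (Or.inr (Or.inr (Or.inr (Or.inr (Or.inr (Or.inr (Or.inr (Or.inr (Or.inl hk))))))))))
    · exact lie (Or.inr (Or.inr (Or.inr (Or.inr (Or.inr (Or.inr (Or.inr (Or.inr (Or.inr (Or.inr (Or.inl hk)))))))))))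
    · exact lie (Or.inr (Or.inr (Or.inr (Or.inr (Or.inr (Or.inr (Or.inr (Or.inr (Or.inr (Or.inr (Or.inr (Or.inl hk))))))))))))
    · exact lie (Or.inr (Or.inr (Or.inr (Or.inr (Or.inr (Or.inr (Or.inr (Or.inr (Or.inr (Or.inr (Or.inr (Or.inr (Or.inl hk)))))))))))))
    · exact lie (Or.inr (Or.inr (Or.inr (Or.inr (Or.inr (Or.inr (Or.inr (Or.inr (Or.inr (Or.inr (Or.inr (Or.inr (Or.inr (Or.inl hk))))))))))))))
    · exact lie (Or.inr (Or.inr (Or.inr (Or.inr (Or.inr (Or.inr (Or.inr (Or.inr (Or.inr (Or.inr (Or.inr (Or.inr (Or.inr (Or.inr (Or.inl hk)))))))))))))))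
    · exact lie (Or.inr (Or.inr (Or.inr (Or.inr (Or.inr (Or.inr (Or.inr (Or.inr (Or.inr (Or.inr (Or.inr (Or.inr (Or.inr (Or.inr (Or.inr hk)))))))))))))))
    · exact triv (R.tits K hk)
  · exact triv (R.spor K hk)

end Cfsg.Agent.H961.CopCore
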