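import Cfsg.Agent.H961.LineChar2
import Cfsg.Agent.LieRecognition.SzMatrix

/-!
# Degree primes of the Suzuki groups (helper961)
-/

set_option autoImplicit false

namespace Cfsg.Agent.H961.LineSz

open Cfsg Cfsg.Agent.H961.LineChar Cfsg.Agent.LieRecognition.SzMatrix
open Matrix hiding J

variable {F : Type*} [Field F] {θ : F →+* F} {e : ℕ}

def rho (F : Type*) [Field F] (e : ℕ) : Cfsg.Lie.Sz F e →* Matrix (Fin 4) (Fin 4) F where
  toFun g := g.1.1
  map_one' := rfl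
  map_mul' _ _ := rfl

theorem rho_apply (g : Cfsg.Lie.Sz F e) : rho F e g = g.1.1 := rfl

def e1 (F : Type*) [Field F] : Fin 4 → F := ![1, 0, 0, 0]

def e4 (F : Type*) [Field F] : Fin 4 → F := ![0, 0, 0, 1]

theorem e1_ne : e1 F ≠ 0 := fun h => by
  have := congrFun h 0
  simp [e1] at this

theorem umat_e1 (a b : F) : Umat θ a b *ᵥ e1 F = e1 F := by
  ext i
  fin_cases i <;> simp [Umat, e1, Matrix.mulVec, dotProduct, Fin.sum_univ_four]

theorem dmat_e1 (k : Fˣ) : Dmat θ k *ᵥ e1 F = (k : F) • e1 F := by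
  ext i
  fin_cases i <;> simp [Dmat, e1, Matrix.mulVec, dotProduct, Fin.sum_univ_four]

theorem dmat_e4 (k : Fˣ) : Dmat θ k *ᵥ e4 F = ((k⁻¹ : Fˣ) : F) • e4 F := by
  ext i
  fin_cases i <;> simp [Dmat, e4, Matrix.mulVec, dotProduct, Fin.sum_univ_four]

theorem J_e1 : J F *ᵥ e1 F = e4 F := by
  ext i
  fin_cases i <;> simp [J, e1, e4, Matrix.mulVec, dotProduct, Fin.sum_univ_four]

theorem exists_tor (H : Good F θ e) (γ : Fˣ) (x : Cfsg.Lie.Sz F e)
    (hx : x ∉ lineStab (rho F e) (e1 F)) : ∃ t, rho F e t *ᵥ e1 F = (γ : F) • e1 F ∧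
      rho F e t *ᵥ (rho F e x *ᵥ e1 F) = ((γ⁻¹ : Fˣ) : F) • (rho F e x *ᵥ e1 F) := by
  rcases H.bruhat x.2 with ⟨a, b, k, h⟩ | ⟨a, b, c, d, k, h⟩
  · exfalso
    apply hx
    refine ⟨k, ?_⟩
    rw [rho_apply, h]
    change (Umat θ a b * Dmat θ k) *ᵥ e1 F = _
    rw [← Matrix.mulVec_mulVec, dmat_e1, Matrix.mulVec_smul, umat_e1]
  · have hUi : (H.U a b)⁻¹.1 * (H.U a b).1 = 1 := by
      rw [← Units.val_mul, inv_mul_cancel, Units.val_one]
    have hx1 : x.1.1 *ᵥ e1 F = (k : F) • ((H.U a b).1 *ᵥ e4 F) := by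
      rw [h]
      change (Umat θ a b * J F * (Umat θ c d * Dmat θ k)) *ᵥ e1 F = _
      rw [← Matrix.mulVec_mulVec, ← Matrix.mulVec_mulVec, ← Matrix.mulVec_mulVec, dmat_e1,
        Matrix.mulVec_smul, umat_e1, Matrix.mulVec_smul, J_e1, Matrix.mulVec_smul]
      rfl
    refine ⟨⟨H.U a b * H.D γ * (H.U a b)⁻¹, mul_mem (mul_mem (H.U_mem a b) (H.D_mem γ))
      (inv_mem (H.U_mem a b))⟩, ?_, ?_⟩
    · change ((H.U a b).1 * (H.D γ).1 * (H.U a b)⁻¹.1) *ᵥ e1 F = _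
      have h1 : (H.U a b).1 *ᵥ e1 F = e1 F := umat_e1 a b
      have h2 : (H.U a b)⁻¹.1 *ᵥ e1 F = e1 F := by
        rw [← h1, Matrix.mulVec_mulVec, hUi, Matrix.one_mulVec, h1]
      have h3 : (H.D γ).1 *ᵥ e1 F = (γ : F) • e1 F := dmat_e1 γ
      rw [← Matrix.mulVec_mulVec, ← Matrix.mulVec_mulVec, h2, h3, Matrix.mulVec_smul, h1]
    · rw [rho_apply x, hx1]
      change ((H.U a b).1 * (H.D γ).1 * (H.U a b)⁻¹.1) *ᵥ _ = _
      have h3 : (H.D γ).1 *ᵥ e4 F = ((γ⁻¹ : Fˣ) : F) • e4 F := dmat_e4 γ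
      have h2 : (H.U a b)⁻¹.1 *ᵥ ((H.U a b).1 *ᵥ e4 F) = e4 F := by
        rw [Matrix.mulVec_mulVec, hUi, Matrix.one_mulVec]
      rw [Matrix.mulVec_smul, ← Matrix.mulVec_mulVec, ← Matrix.mulVec_mulVec, h2, h3,
        Matrix.mulVec_smul, smul_comm]

theorem unip (H : Good F θ e) (x : Cfsg.Lie.Sz F e) (h : rho F e x *ᵥ e1 F = e1 F) :
    x ^ (2 ^ 2) = 1 := by
  have : CharP F 2 := CharTwo.of_one_ne_zero_of_two_eq_zero one_ne_zero H.two
  have h0 : x.1.1 0 0 = 1 := by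
    have := congrFun h 0
    simpa [rho_apply, e1, Matrix.mulVec, dotProduct, Fin.sum_univ_four] using this
  have h3 : x.1.1 3 0 = 0 := by
    have := congrFun h 3
    simpa [rho_apply, e1, Matrix.mulVec, dotProduct, Fin.sum_univ_four] using this
  have hU := H.eq_U x.2 h3 h0
  apply Subtype.ext
  apply Units.ext
  rw [Subgroup.coe_pow, Units.val_pow_eq_pow_val, Subgroup.coe_one, Units.val_one]
  generalize x.1.1 0 1 = a at hU
  generalize x.1.1 0 2 = b at hU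
  have hU' : x.1.1 = Umat θ a b := by rw [hU]; rfl
  have : Fact (Nat.Prime 2) := ⟨Nat.prime_two⟩
  refine pow_eq_one_of_nilp (r := 2) (k := 2) (N := !![0, a, b, a * b + a ^ 2 * θ a + θ b;
     0, 0, θ a, b + a * θ a;
     0, 0, 0, a;
     0, 0, 0, 0]) ?_ ?_
  · rw [hU']
    ext i j
    fin_cases i <;> fin_cases j <;> simp [Umat]
  · have h4 : (2 : ℕ) ^ 2 = 4 := by norm_num
    rw [h4, pow_succ, pow_succ, pow_two]
    ext i j
    fin_cases i <;> fin_cases j <;> simp [Matrix.mul_apply, Fin.sum_univ_four]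

theorem mem_degreePrimes [Fintype F] {m : ℕ} (hm : 1 ≤ m) (hF : Fintype.card F = 2 ^ (2 * m + 1))
    {p : ℕ} (hp : p.Prime) (hpr : p ≠ 2) (hpF : ¬ p ∣ 2 ^ (2 * m + 1) - 1)
    (hpG : p ∣ Nat.card (Cfsg.Lie.Sz F (2 ^ (m + 1)))) :
    p ∈ degreePrimes (Cfsg.Lie.Sz F (2 ^ (m + 1))) := by
  have H := good hF
  obtain ⟨γ, hγ⟩ := IsCyclic.exists_generator (α := Fˣ)
  have hcard : Nat.card Fˣ = 2 ^ (2 * m + 1) - 1 := by
    rw [Nat.card_units, Nat.card_eq_fintype_card, hF]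
  have hord : orderOf γ = 2 ^ (2 * m + 1) - 1 := by
    rw [orderOf_eq_card_of_forall_mem_zpowers hγ, hcard]
  have key : p ∈ degreePrimes (Cfsg.Lie.Sz F (2 ^ (m + 1)) ⧸
      (⊥ : Subgroup (Cfsg.Lie.Sz F (2 ^ (m + 1))))) := by
    refine LineChar.mem_degreePrimes' (Cfsg.Lie.Sz F (2 ^ (m + 1))) (rho F _) e1_ne
      (Z' := ⊥) (α := γ) (δ := γ⁻¹) ?_ (exists_tor H γ) _ ?_
      (r := 2) (k := 2) (unip H) hp ?_ ?_ ?_
    · rw [Subgroup.mem_bot, inv_inv, ← pow_two]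
      intro h
      have h1 := orderOf_dvd_of_pow_eq_one h
      rw [hord] at h1
      have h2 := Nat.le_of_dvd (by norm_num) h1
      have h3 : 2 ^ 3 ≤ 2 ^ (2 * m + 1) := Nat.pow_le_pow_right (by norm_num) (by omega)
      omega
    · intro z hz
      rw [Subgroup.mem_bot] at hz
      refine ⟨1, rfl, fun v => ?_⟩
      rw [hz, map_one, Matrix.one_mulVec, Units.val_one, one_smul]
    · intro h
      exact hpr ((Nat.prime_dvd_prime_iff_eq hp Nat.prime_two).1 h)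
    · rw [hcard]
      exact hpF
    · rw [Nat.card_congr QuotientGroup.quotientBot.toEquiv]
      exact hpG
  exact degreePrimes_congr QuotientGroup.quotientBot.symm key

end Cfsg.Agent.H961.LineSz
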