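import Cfsg.Agent.H961.Recog
import Cfsg.Agent.H961.LinePSL2
import Cfsg.Agent.H961.LinePSU3
import Cfsg.Agent.H961.LineSz
import Cfsg.Agent.H961.SteinPSL2
import Cfsg.Agent.ClassicalGeometry.PSL2Basic
import Cfsg.Agent.LieClassical.FieldTransfer
import Cfsg.Agent.Mrg.Omega.TwoFFour.SzNatC

/-!
# Some simple `K₄`-groups by order and degree primes (helper961)
-/

set_option autoImplicit false

namespace Cfsg.Agent.H961.K4

open Cfsg Cfsg.Agent.OrdDiv Cfsg.Agent.H961.PrimeSection Cfsg.Agent.H961.Recog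

universe u v

variable (T : OrderTable.{u}) (hK : ∀ (K : Type u) [Group K] [Finite K] [IsSimpleGroup K],
    IsKnownSimple' K) {G : Type u} [Group G] [Finite G] {S : Type v} [Group S]

include T hK in
theorem psl_case {F : Type} [Field F] [Fintype F] (e : S ≃* Matrix.ProjectiveSpecialLinearGroup (Fin 2) F)
    (hcard : Nat.card G = Nat.card S) (hΔ : degreePrimes G = degreePrimes S)
    {r f q p N : ℕ} (l : List (ℕ × ℕ)) (hr : r.Prime) (hq : q = r ^ f)
    (hF : Fintype.card F = q) (hN : q * (q ^ 2 - 1) / Nat.gcd 2 (q - 1) = N)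
    (hv : valid l N = true) (hcond : condB p l = true) (hp : p.Prime) (hp2 : ¬ p ^ 2 ∣ N)
    (hcands : (cands l N).filter (fun g => decide (p ∣ ordN g)) = [Grp.psl 2 q])
    (hg : ordN (Grp.psl 2 q) = N) (h6 : 6 ≤ q) (hpN : p ∣ N)
    (hpq : p = q ∨ (p ≠ r ∧ ¬ p ∣ q - 1)) : Nonempty (G ≃* S) := by
  have := Fact.mk hr
  have : CharP F r := charP_of_card_eq_prime_pow (hF.trans hq)
  have hc : Nat.card (Matrix.ProjectiveSpecialLinearGroup (Fin 2) F) = N := by
    rw [Cfsg.Agent.ClassicalGeometry.PSL2Basic.card_PSL2_div, hF, hN]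
  have hFn : Nat.card F = q := by rw [Nat.card_eq_fintype_card, hF]
  have hmem : p ∈ degreePrimes (Matrix.ProjectiveSpecialLinearGroup (Fin 2) F) := by
    rcases hpq with h | ⟨h1, h2⟩
    · exact SteinPSL2.mem_degreePrimes hp (by rw [hFn, h])
    · exact LinePSL2.mem_degreePrimes r (by rw [hFn]; exact h6) hp h1 (by rw [hFn]; exact h2)
        (by rw [hc]; exact hpN)
  refine Recog.main T hK (Grp.psl 2 q) p N l hv hcond hp hp2 hcands hg ?_ ?_ ?_
  · rw [hcard, Nat.card_congr e.toEquiv, hc]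
  · rw [hΔ]
    exact LineChar.degreePrimes_congr e hmem
  · rintro K _ ⟨F', _, _, hF', ⟨e'⟩⟩
    exact ⟨(e'.trans (Cfsg.Agent.LieClassical.FieldTransfer.pslCongr
      (FiniteField.ringEquivOfCardEq (hF'.trans hF.symm)))).trans e.symm⟩

include T hK in
theorem psu_case {F : Type} [Field F] [Fintype F] {q : ℕ} (e : S ≃* PSU 3 F q)
    (hcard : Nat.card G = Nat.card S) (hΔ : degreePrimes G = degreePrimes S)
    {r f p N : ℕ} (l : List (ℕ × ℕ)) (hr : r.Prime) (hq : q = r ^ f)
    (hF : Fintype.card F = q ^ 2)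
    (hN : q ^ 3 * ((q + 1) * ((q ^ 2 - 1) * (q ^ 3 + 1))) = Nat.gcd 3 (q + 1) * ((q + 1) * N))
    (hv : valid l N = true) (hcond : condB p l = true) (hp : p.Prime) (hp2 : ¬ p ^ 2 ∣ N)
    (hcands : (cands l N).filter (fun g => decide (p ∣ ordN g)) = [Grp.psu 3 q])
    (hg : ordN (Grp.psu 3 q) = N) (h4 : 4 ≤ q) (hpN : p ∣ N)
    (hpr : p ≠ r) (hpq : ¬ p ∣ q ^ 2 - 1) : Nonempty (G ≃* S) := by
  have := Fact.mk hr
  have : CharP F r := charP_of_card_eq_prime_pow (f := f * 2) (by rw [hF, hq, pow_mul])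
  have hc : Nat.card (PSU 3 F q) = N := by
    have h := S0280.result hF 3 (by norm_num)
    rw [Finset.prod_range_succ, Finset.prod_range_succ, Finset.prod_range_one] at h
    simp only [Even.zero, if_true, zero_add, pow_one, Nat.reduceMul, Nat.reduceDiv, Nat.reduceSub,
      Nat.reduceAdd, even_two] at h
    rw [if_neg (by decide)] at h
    rw [mul_assoc (q + 1), hN] at h
    exact Nat.eq_of_mul_eq_mul_left (by omega)
      (Nat.eq_of_mul_eq_mul_left (Nat.gcd_pos_of_pos_left _ (by norm_num)) h)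
  have hmem : p ∈ degreePrimes (PSU 3 F q) :=
    LinePSU3.mem_degreePrimes (r := r) hF hq h4 hp hpr hpq (by rw [hc]; exact hpN)
  refine Recog.main T hK (Grp.psu 3 q) p N l hv hcond hp hp2 hcands hg ?_ ?_ ?_
  · rw [hcard, Nat.card_congr e.toEquiv, hc]
  · rw [hΔ]
    exact LineChar.degreePrimes_congr e hmem
  · rintro K _ ⟨F', _, _, hF', ⟨e'⟩⟩
    exact ⟨(e'.trans (Cfsg.Agent.LieClassical.FieldTransfer.psuCongr 3 q
      (FiniteField.ringEquivOfCardEq (hF'.trans hF.symm)))).trans e.symm⟩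

include T hK in
theorem sz_case {F : Type} [Field F] [Fintype F] {m : ℕ} (hm : 1 ≤ m)
    (e : S ≃* ↥(Cfsg.Lie.Sz F (2 ^ (m + 1))))
    (hcard : Nat.card G = Nat.card S) (hΔ : degreePrimes G = degreePrimes S)
    {q p N : ℕ} (l : List (ℕ × ℕ)) (hq : q = 2 ^ (2 * m + 1))
    (hF : Fintype.card F = 2 ^ (2 * m + 1)) (hN : q ^ 2 * (q - 1) * (q ^ 2 + 1) = N)
    (hv : valid l N = true) (hcond : condB p l = true) (hp : p.Prime) (hp2 : ¬ p ^ 2 ∣ N)
    (hcands : (cands l N).filter (fun g => decide (p ∣ ordN g)) = [Grp.sz q])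
    (hg : ordN (Grp.sz q) = N) (hpN : p ∣ N)
    (hpr : p ≠ 2) (hpq : ¬ p ∣ q - 1) : Nonempty (G ≃* S) := by
  have hc : Nat.card ↥(Cfsg.Lie.Sz F (2 ^ (m + 1))) = N := by
    rw [T.sz F m hm hF, ← hq, hN]
  have hmem : p ∈ degreePrimes ↥(Cfsg.Lie.Sz F (2 ^ (m + 1))) :=
    LineSz.mem_degreePrimes hm hF hp hpr (by rw [← hq]; exact hpq) (by rw [hc]; exact hpN)
  refine Recog.main T hK (Grp.sz q) p N l hv hcond hp hp2 hcands hg ?_ ?_ ?_
  · rw [hcard, Nat.card_congr e.toEquiv, hc]
  · rw [hΔ]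
    exact LineChar.degreePrimes_congr e hmem
  · rintro K _ ⟨F', _, _, m', hm', hF', hq', ⟨e'⟩⟩
    have hmm : m' = m := by
      have h1 : 2 ^ (2 * m' + 1) = 2 ^ (2 * m + 1) := by rw [← hq', hq]
      have := Nat.pow_right_injective (le_refl 2) h1
      omega
    subst hmm
    obtain ⟨σ⟩ := Cfsg.Agent.Omega.NO3S.OneQ.TIq.szCongr
      (FiniteField.ringEquivOfCardEq (K := F') (K' := F) (by rw [hF', hF, hq])) (2 ^ (m' + 1))
    exact ⟨(e'.trans σ).trans e.symm⟩

include T hK in
theorem main {S : Type v} [Group S] [Finite S]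
    (hS : (∃ (F : Type) (_ : Field F) (_ : Fintype F), Fintype.card F ∈ ({23, 25, 47, 81} : Finset ℕ) ∧ Nonempty (S ≃* Matrix.ProjectiveSpecialLinearGroup (Fin 2) F)) ∨
      (∃ (F : Type) (_ : Field F) (_ : Fintype F) (q : ℕ), q ∈ ({7, 8, 9} : Finset ℕ) ∧ Fintype.card F = q ^ 2 ∧ Nonempty (S ≃* Cfsg.PSU 3 F q)) ∨
      (∃ (F : Type) (_ : Field F) (_ : Fintype F) (m : ℕ), m ∈ ({1, 2} : Finset ℕ) ∧ Fintype.card F = 2 ^ (2 * m + 1) ∧ Nonempty (S ≃* ↥(Cfsg.Lie.Sz F (2 ^ (m + 1))))))
    (hcard : Nat.card G = Nat.card S) (hΔ : degreePrimes G = degreePrimes S) :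
    Nonempty (G ≃* S) := by
  rcases hS with ⟨F, _, _, hF, ⟨e⟩⟩ | ⟨F, _, _, q, hq, hF, ⟨e⟩⟩ | ⟨F, _, _, m, hm, hF, ⟨e⟩⟩
  · simp only [Finset.mem_insert, Finset.mem_singleton] at hF
    rcases hF with hF | hF | hF | hF
    · exact psl_case T hK e hcard hΔ (r := 23) (f := 1) (p := 23) (N := 6072)
        [(2,3),(3,1),(11,1),(23,1)] (by norm_num) (by norm_num) hF (by norm_num) (by decide +kernel)
        (by decide +kernel) (by norm_num) (by norm_num) (by decide +kernel) (by decide +kernel)
        (by norm_num) (by norm_num) (Or.inl rfl)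
    · exact psl_case T hK e hcard hΔ (r := 5) (f := 2) (p := 13) (N := 7800)
        [(2,3),(3,1),(5,2),(13,1)] (by norm_num) (by norm_num) hF (by norm_num) (by decide +kernel)
        (by decide +kernel) (by norm_num) (by norm_num) (by decide +kernel) (by decide +kernel)
        (by norm_num) (by norm_num) (Or.inr (by norm_num))
    · exact psl_case T hK e hcard hΔ (r := 47) (f := 1) (p := 47) (N := 51888)
        [(2,4),(3,1),(23,1),(47,1)] (by norm_num) (by norm_num) hF (by norm_num) (by decide +kernel)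
        (by decide +kernel) (by norm_num) (by norm_num) (by decide +kernel) (by decide +kernel)
        (by norm_num) (by norm_num) (Or.inl rfl)
    · exact psl_case T hK e hcard hΔ (r := 3) (f := 4) (p := 41) (N := 265680)
        [(2,4),(3,4),(5,1),(41,1)] (by norm_num) (by norm_num) hF (by norm_num) (by decide +kernel)
        (by decide +kernel) (by norm_num) (by norm_num) (by decide +kernel) (by decide +kernel)
        (by norm_num) (by norm_num) (Or.inr (by norm_num))
  · simp only [Finset.mem_insert, Finset.mem_singleton] at hq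
    rcases hq with rfl | rfl | rfl
    · exact psu_case T hK e hcard hΔ (r := 7) (f := 1) (p := 43) (N := 5663616)
        [(2,7),(3,1),(7,3),(43,1)] (by norm_num) (by norm_num) hF (by norm_num) (by decide +kernel)
        (by decide +kernel) (by norm_num) (by norm_num) (by decide +kernel) (by decide +kernel)
        (by norm_num) (by norm_num) (by norm_num) (by norm_num)
    · exact psu_case T hK e hcard hΔ (r := 2) (f := 3) (p := 19) (N := 5515776)
        [(2,9),(3,4),(7,1),(19,1)] (by norm_num) (by norm_num) hF (by norm_num) (by decide +kernel)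
        (by decide +kernel) (by norm_num) (by norm_num) (by decide +kernel) (by decide +kernel)
        (by norm_num) (by norm_num) (by norm_num) (by norm_num)
    · exact psu_case T hK e hcard hΔ (r := 3) (f := 2) (p := 73) (N := 42573600)
        [(2,5),(3,6),(5,2),(73,1)] (by norm_num) (by norm_num) hF (by norm_num) (by decide +kernel)
        (by decide +kernel) (by norm_num) (by norm_num) (by decide +kernel) (by decide +kernel)
        (by norm_num) (by norm_num) (by norm_num) (by norm_num)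
  · simp only [Finset.mem_insert, Finset.mem_singleton] at hm
    rcases hm with rfl | rfl
    · exact sz_case T hK le_rfl e hcard hΔ (q := 8) (p := 13) (N := 29120)
        [(2,6),(5,1),(7,1),(13,1)] (by norm_num) hF (by norm_num) (by decide +kernel)
        (by decide +kernel) (by norm_num) (by norm_num) (by decide +kernel) (by decide +kernel)
        (by norm_num) (by norm_num) (by norm_num)
    · exact sz_case T hK (by norm_num) e hcard hΔ (q := 32) (p := 41) (N := 32537600)
        [(2,10),(5,2),(31,1),(41,1)] (by norm_num) hF (by norm_num) (by decide +kernel)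
        (by decide +kernel) (by norm_num) (by norm_num) (by decide +kernel) (by decide +kernel)
        (by norm_num) (by norm_num) (by norm_num)

end Cfsg.Agent.H961.K4
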